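import Cfsg.Agent.H612.Deg3.Restr
import Cfsg.Agent.H113.PSL.Three

/-!
# The cubic principal series of `SL_3(q)` (helper612)

`cubic_degree` : the characters of `SL_3(q)` in the cubic principal series have degree `(q + 1)(q² + q + 1)/3`.
-/

set_option autoImplicit false
set_option linter.unusedSectionVars false
set_option linter.unusedSimpArgs false
set_option linter.style.haveILetI false

open scoped ComplexConjugate
open Cfsg Matrix

namespace Cfsg.Agent.H612.Deg3

open Cfsg.Agent.Characters Cfsg.Agent.Characters.Core Cfsg.Agent.OddOrderCharacters.Clifford Cfsg.Agent.H53.HC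
  Cfsg.Agent.H670 Cfsg.Agent.H670.RankOne
open Cfsg.Agent.H113.PSL.Para Cfsg.Agent.H113.PSL.Hyper Cfsg.Agent.H113.PSL.Three MulAction Module

universe u v

variable {F : Type v} [Field F]

/-- the natural representation -/
noncomputable def rho (F : Type v) [Field F] : GL (Fin 3) F →* ((Fin 3 → F) ≃ₗ[F] (Fin 3 → F)) :=
  (glE (Pi.basisFun F (Fin 3))).symm.toMonoidHom

theorem rho_apply (g : GL (Fin 3) F) (v : Fin 3 → F) : rho F g v = (g : Matrix (Fin 3) (Fin 3) F).mulVec v :=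
  glE_symm_apply g v

/-- the natural representation of `SL_3` -/
noncomputable def tau (F : Type v) [Field F] : SpecialLinearGroup (Fin 3) F →* ((Fin 3 → F) ≃ₗ[F] (Fin 3 → F)) :=
  (rho F).comp Matrix.SpecialLinearGroup.toGL

theorem tau_apply (g : SpecialLinearGroup (Fin 3) F) (v : Fin 3 → F) :
    tau F g v = (g : Matrix (Fin 3) (Fin 3) F).mulVec v :=
  glE_symm_apply _ v

/-- the plane -/
def W0 (F : Type v) [Field F] : Submodule F (Fin 3 → F) := LinearMap.ker (LinearMap.proj 2)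

theorem mem_W0 {v : Fin 3 → F} : v ∈ W0 F ↔ v 2 = 0 := Iff.rfl

/-- its coordinates -/
def eW (F : Type v) [Field F] : (Fin 2 → F) ≃ₗ[F] W0 F where
  toFun v := ⟨![v 0, v 1, 0], by rw [mem_W0]; rfl⟩
  map_add' v w := by
    apply Subtype.ext
    ext i
    fin_cases i <;> simp
  map_smul' c v := by
    apply Subtype.ext
    ext i
    fin_cases i <;> simp
  invFun w := ![(w : Fin 3 → F) 0, (w : Fin 3 → F) 1]
  left_inv v := by
    ext i
    fin_cases i <;> rfl
  right_inv w := by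
    apply Subtype.ext
    ext i
    fin_cases i
    · rfl
    · rfl
    · exact (mem_W0.1 w.2).symm

theorem coe_eW (v : Fin 2 → F) : ((eW F v : W0 F) : Fin 3 → F) = ![v 0, v 1, 0] := rfl

theorem finrank_W0 : finrank F (W0 F) = 2 := by
  rw [← (eW F).finrank_eq, finrank_fin_fun]

theorem map_W0_iff (g : SpecialLinearGroup (Fin 3) F) :
    (W0 F).map (tau F g : (Fin 3 → F) →ₗ[F] (Fin 3 → F)) = W0 F ↔ g ∈ P F := by
  constructor
  · intro h
    have key : ∀ v ∈ W0 F, tau F g v ∈ W0 F := fun v hv => by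
      rw [← h]
      exact ⟨v, hv, rfl⟩
    have h0 := key ![1, 0, 0] (by rw [mem_W0]; rfl)
    have h1 := key ![0, 1, 0] (by rw [mem_W0]; rfl)
    rw [mem_W0, tau_apply] at h0 h1
    refine ⟨?_, ?_⟩
    · simpa [Matrix.mulVec, dotProduct, Fin.sum_univ_three] using h0
    · simpa [Matrix.mulVec, dotProduct, Fin.sum_univ_three] using h1
  · rintro ⟨h1, h2⟩
    apply Submodule.eq_of_le_of_finrank_eq
    · rintro _ ⟨w, hw, rfl⟩
      rw [LinearEquiv.coe_coe, mem_W0, tau_apply]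
      rw [SetLike.mem_coe, mem_W0] at hw
      simp [Matrix.mulVec, dotProduct, Fin.sum_univ_three, h1, h2, hw]
    · rw [LinearEquiv.finrank_map_eq (tau F g) (W0 F)]

theorem exists_map_W0 (W : Submodule F (Fin 3 → F)) (hW : finrank F W = 2) :
    ∃ g : SpecialLinearGroup (Fin 3) F, (W0 F).map (tau F g : (Fin 3 → F) →ₗ[F] (Fin 3 → F)) = W := by
  obtain ⟨g, hg⟩ := exists_map_eq (K := F) (V := Fin 3 → F) (W := W0 F) (W' := W) (finrank_W0.trans hW.symm)
  set A : GL (Fin 3) F := glE (Pi.basisFun F (Fin 3)) g with hA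
  have hgA : ∀ v, g v = (A : Matrix (Fin 3) (Fin 3) F).mulVec v := by
    intro v
    rw [← glE_symm_apply, hA, MulEquiv.symm_apply_apply]
  set d : F := (A : Matrix (Fin 3) (Fin 3) F).det with hd
  have hd0 : d ≠ 0 := ((Matrix.isUnit_iff_isUnit_det _).1 A.isUnit).ne_zero
  let s : SpecialLinearGroup (Fin 3) F := ⟨(A : Matrix (Fin 3) (Fin 3) F) * !![1, 0, 0; 0, 1, 0; 0, 0, d⁻¹], by
    rw [Matrix.det_mul, ← hd, det_fin_three]
    simp [hd0]⟩
  refine ⟨s, ?_⟩
  rw [← hg]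
  have h1 : ∀ v ∈ W0 F, tau F s v = g v := by
    intro v hv
    rw [tau_apply, hgA]
    change ((A : Matrix (Fin 3) (Fin 3) F) * !![1, 0, 0; 0, 1, 0; 0, 0, d⁻¹]).mulVec v = _
    rw [← Matrix.mulVec_mulVec]
    congr 1
    rw [mem_W0] at hv
    ext i
    fin_cases i <;> simp [Matrix.mulVec, dotProduct, Fin.sum_univ_three, hv]
  apply le_antisymm
  · rintro _ ⟨w, hw, rfl⟩
    exact ⟨w, hw, (h1 w hw).symm⟩
  · rintro _ ⟨w, hw, rfl⟩
    exact ⟨w, hw, h1 w hw⟩

theorem cl_one_quo {n : ℕ} {W : Type*} [AddCommGroup W] [Module F W] (b : Basis (Fin n) F W) (f : W ≃ₗ[F] W) :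
    cl (linDet (1 : Fˣ →* ℂˣ) n) f = 1 := by
  rw [cl_linDet b]
  simp

/-- the local term at the plane -/
theorem paraTerm_W0 {Ψ : GL (Fin 2) F → ℂ} (hΨ : IsClassFunction _ Ψ) (g : P F) :
    paraTerm (tau F) Ψ (linDet (1 : Fˣ →* ℂˣ) 1) (g : SpecialLinearGroup (Fin 3) F) (W0 F) = Ψ (pi g) := by
  have h := (map_W0_iff (g : SpecialLinearGroup (Fin 3) F)).2 g.2
  rw [paraTerm_of _ _ _ h]
  have hq : finrank F ((Fin 3 → F) ⧸ W0 F) = 1 := by
    have h1 := Submodule.finrank_quotient_add_finrank (W0 F)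
    rw [finrank_W0, finrank_fin_fun] at h1
    omega
  rw [cl_one_quo (finBasisOfFinrankEq F _ hq), mul_one]
  set f : (Fin 2 → F) ≃ₗ[F] (Fin 2 → F) := (glE (Pi.basisFun F (Fin 2))).symm (pi g) with hf
  have h1 : res (tau F (g : SpecialLinearGroup (Fin 3) F)) (W0 F) h = ((eW F).symm.trans f).trans (eW F) := by
    apply LinearEquiv.ext
    intro w
    obtain ⟨v, rfl⟩ := (eW F).surjective w
    rw [LinearEquiv.trans_apply, LinearEquiv.trans_apply, LinearEquiv.symm_apply_apply]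
    apply Subtype.ext
    have hg1 := g.2.1
    have hg2 := g.2.2
    rw [coe_res, tau_apply, coe_eW, coe_eW, hf, glE_symm_apply, pi_apply]
    ext i
    fin_cases i <;> simp [Matrix.mulVec, dotProduct, Fin.sum_univ_three, Fin.sum_univ_two, GL2.mk, hg1, hg2]
  rw [h1, cl_eq hΨ ((Pi.basisFun F (Fin 2)).map (eW F)), glE_map, hf, MulEquiv.apply_symm_apply]

theorem indFun_congr {G : Type*} [Group G] [Fintype G] {H K : Subgroup G} (h : H = K) {φ : H → ℂ} {ψ : K → ℂ}
    (hφ : ∀ x (h1 : x ∈ H) (h2 : x ∈ K), φ ⟨x, h1⟩ = ψ ⟨x, h2⟩) : indFun H φ = indFun K ψ := by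
  subst h
  congr 1
  funext x
  exact hφ x.1 x.2 x.2

variable [Fintype F] [Fintype (SpecialLinearGroup (Fin 3) F)]

/-- **The restriction to `SL_3`.** -/
theorem para_restrict [Fintype (dimSet F (Fin 3 → F) 2)] {Ψ : GL (Fin 2) F → ℂ} (hΨ : IsClassFunction _ Ψ)
    (g : SpecialLinearGroup (Fin 3) F) :
    paraChar (rho F) Ψ (linDet (1 : Fˣ →* ℂˣ) 1) (Matrix.SpecialLinearGroup.toGL g) = I Ψ g := by
  classical
  have h0 : paraChar (rho F) Ψ (linDet (1 : Fˣ →* ℂˣ) 1) (Matrix.SpecialLinearGroup.toGL g) =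
      paraChar (tau F) Ψ (linDet (1 : Fˣ →* ℂˣ) 1) g := rfl
  rw [h0]
  letI := subAct (tau F) (dimSet F (Fin 3 → F) 2) (dimSet_map (tau F))
  have hpt : IsPretransitive (SpecialLinearGroup (Fin 3) F) (dimSet F (Fin 3 → F) 2) := by
    refine ⟨fun W W' => ?_⟩
    obtain ⟨a, ha⟩ := exists_map_W0 W.1 W.2
    obtain ⟨b, hb⟩ := exists_map_W0 W'.1 W'.2
    let ω : dimSet F (Fin 3 → F) 2 := ⟨W0 F, finrank_W0⟩
    have ha' : a • ω = W := Subtype.ext ha
    have hb' : b • ω = W' := Subtype.ext hb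
    exact ⟨b * a⁻¹, by rw [← ha', ← hb', mul_smul, inv_smul_smul]⟩
  have hone : IsClassFunction _ (linDet (K := F) (1 : Fˣ →* ℂˣ) 1) := by
    intro x y
    unfold linDet
    simp
  rw [paraChar_eq_orbSum (tau F), orbSum_eq_indFun (fun g (W : dimSet F (Fin 3 → F) 2) =>
    paraTerm (tau F) Ψ (linDet (1 : Fˣ →* ℂˣ) 1) g W.1)
    (fun x g W => paraTerm_conj (tau F) hΨ hone x g W.1) ⟨W0 F, finrank_W0⟩]
  unfold I
  rw [indFun_congr (H := stabilizer (SpecialLinearGroup (Fin 3) F) (⟨W0 F, finrank_W0⟩ : dimSet F (Fin 3 → F) 2))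
    (K := P F) (ψ := Ψ ∘ pi) ?_ ?_]
  · ext x
    rw [mem_stabilizer_iff, ← map_W0_iff]
    exact ⟨fun h => congrArg Subtype.val h, fun h => Subtype.ext h⟩
  · intro x h1 h2
    exact paraTerm_W0 hΨ ⟨x, h2⟩

theorem sum_hom_eq_zero {A : Type*} [Group A] [Fintype A] (f : A →* ℂˣ) (hf : ∃ a, f a ≠ 1) :
    ∑ a : A, ((f a : ℂˣ) : ℂ) = 0 := by
  obtain ⟨a₀, ha₀⟩ := hf
  have h1 : ((f a₀ : ℂˣ) : ℂ) * ∑ a : A, ((f a : ℂˣ) : ℂ) = ∑ a : A, ((f a : ℂˣ) : ℂ) := by
    rw [Finset.mul_sum]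
    refine Fintype.sum_equiv (Equiv.mulLeft a₀) _ _ fun a => ?_
    rw [Equiv.coe_mulLeft, map_mul, Units.val_mul]
  have h2 : (((f a₀ : ℂˣ) : ℂ) - 1) * ∑ a : A, ((f a : ℂˣ) : ℂ) = 0 := by rw [sub_mul, h1, one_mul, sub_self]
  refine (mul_eq_zero.1 h2).resolve_left fun h3 => ha₀ ?_
  apply Units.ext
  rw [Units.val_one]
  exact sub_eq_zero.1 h3

variable [Fintype Fˣ] [Fintype (GL (Fin 2) F)]

/-- the induced character of `GL_3` is irreducible -/
theorem isIrr_para [Fintype (dimSet F (Fin 3 → F) 2)] {lam : (GL2.data F).T →* ℂˣ}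
    (hlam : lam ≠ lam.comp (GL2.data F).wT) (h1 : fl lam ≠ (fl lam).comp sg)
    (h2 : sw (fl lam) ≠ (sw (fl lam)).comp sg) :
    IsIrrCharacter _ (paraChar (rho F) ((GL2.data F).ind lam) (linDet (1 : Fˣ →* ℂˣ) 1)) := by
  classical
  have hΨ := (GL2.data F).isIrr_ind hlam
  have hcf := isIrr_isClassFunction hΨ
  have : Fintype (GL (Fin 3) F) := Fintype.ofFinite _
  refine isIrr_paraChar_hyper (rho F) (glE (Pi.basisFun F (Fin 3))).symm.surjective (by rw [finrank_fin_fun]) hΨ 1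
    (isIrr_linDet 1) (noFix_of hcf 1 ?_)
  have hJ : ∀ c : Fˣ, ∑ y : F, (GL2.data F).ind lam (mir c y) * conj (((1 : Fˣ →* ℂˣ) c : ℂˣ) : ℂ) =
      (Fintype.card F : ℂ) * (((fl lam (1, c) : ℂˣ) : ℂ) + ((fl lam (c, 1) : ℂˣ) : ℂ)) := by
    intro c
    have h3 := J_eq ((GL2.data F).ind lam) 1 c
    rw [J_ind, Pi.add_apply, fl_wT] at h3
    rw [← Finset.sum_mul]
    simp only [MonoidHom.one_apply, Units.val_one, map_one, mul_one]
    have h4 : ∑ y : F, (GL2.data F).ind lam (mir c y) =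
        ∑ x : F, (GL2.data F).ind lam (GL2.mk ((1 : Fˣ) : F) x 0 c (by simp)) := by
      refine Finset.sum_congr rfl fun y _ => ?_
      congr 1
    rw [h4, h3]
    rfl
  rw [Finset.sum_congr rfl fun c _ => hJ c, ← Finset.mul_sum, Finset.sum_add_distrib]
  have h3 : ∀ i : Fintype Fˣ, @Finset.sum _ _ _ (@Finset.univ _ i) (fun c => ((fl lam (1, c) : ℂˣ) : ℂ)) = 0 := by
    intro i
    refine @sum_hom_eq_zero _ _ i ((fl lam).comp (MonoidHom.inr Fˣ Fˣ)) ?_
    by_contra hcon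
    push Not at hcon
    exact h1 ((fix_sg_iff _).2 hcon)
  have h4 : ∀ i : Fintype Fˣ, @Finset.sum _ _ _ (@Finset.univ _ i) (fun c => ((fl lam (c, 1) : ℂˣ) : ℂ)) = 0 := by
    intro i
    refine @sum_hom_eq_zero _ _ i ((fl lam).comp (MonoidHom.inl Fˣ Fˣ)) ?_
    by_contra hcon
    push Not at hcon
    exact h2 ((fix_sg_iff _).2 hcon)
  rw [h3, h4, add_zero, mul_zero]

theorem cd_cast {A : Type*} [Group A] [Finite A] {χ : A → ℂ} (hχ : IsIrrCharacter A χ) : (charDegree χ : ℂ) = χ 1 := by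
  obtain ⟨k, -, hk⟩ := isIrr_apply_one hχ
  rw [Cfsg.Agent.H973.SLThree.charDegree_eq hk, hk]

omit [Fintype (SpecialLinearGroup (Fin 3) F)] [Fintype (GL (Fin 2) F)] [Fintype Fˣ] in
theorem natCard_units : Nat.card Fˣ = Fintype.card F - 1 := by
  classical
  rw [← Fintype.card_units]
  exact @Nat.card_eq_fintype_card _ _

/-- **The degrees in the cubic principal series.** -/
theorem cubic_degree {χ : SpecialLinearGroup (Fin 3) F → ℂ} (hχ : IsIrrCharacter _ χ) (hc : Cubic χ) :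
    3 * χ 1 = ((Fintype.card F : ℂ) + 1) * ((Fintype.card F : ℂ) ^ 2 + Fintype.card F + 1) ∧
    3 ∣ Fintype.card F - 1 := by
  classical
  obtain ⟨lam, hlam, h1, h2, h3, h4⟩ := hc
  have hΨ := (GL2.data F).isIrr_ind hlam
  have hcf := isIrr_isClassFunction hΨ
  letI : Fintype (dimSet F (Fin 3 → F) 2) := Fintype.ofFinite _
  letI : Fintype (GL (Fin 3) F) := Fintype.ofFinite _
  have hirr := isIrr_para hlam h1 h2
  set X := paraChar (rho F) ((GL2.data F).ind lam) (linDet (1 : Fˣ →* ℂˣ) 1) with hX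
  constructor
  · let f : GL (Fin 3) F →* Fˣ := GeneralLinearGroup.det
    letI : Fintype f.ker := Fintype.ofFinite _
    let e : SpecialLinearGroup (Fin 3) F ≃* f.ker :=
      (MonoidHom.ofInjective Matrix.SpecialLinearGroup.toGL_injective).trans
        (MulEquiv.subgroupCongr (Cfsg.Agent.ClassicalGeometry.PSL2Basic.range_toGL (Fin 3) F))
    have hres : (fun n : f.ker => X n) ∘ e = I ((GL2.data F).ind lam) := by
      funext g
      exact para_restrict hcf g
    have hν : IsIrrCharacter f.ker (χ ∘ e.symm) := isIrr_comp e.symm.toMonoidHom e.symm.surjective hχ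
    have hin : ∀ φ : f.ker → ℂ, classInner (fun n : f.ker => X n) φ =
        classInner (I ((GL2.data F).ind lam)) (φ ∘ e) := by
      intro φ
      rw [← hres, Clifford.classInner_comp_mulEquiv e]
    have hχe : (χ ∘ e.symm) ∘ e = χ := by
      funext g
      simp
    have hne : classInner (fun n : f.ker => X n) (χ ∘ e.symm) ≠ 0 := by
      rw [hin, hχe]
      intro h0
      apply h4
      rw [← classInner_conj_symm, h0, map_zero]
    obtain ⟨k, t, -, hdeg, hnorm, -⟩ := Cfsg.Agent.H597.IndexP.exists_clifford_numbers f.ker hirr hν hne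
    rw [hin, hres, (norm_ps hlam).2.1 h1 h2 h3] at hnorm
    have hkt : k ^ 2 * t = 3 := by exact_mod_cast hnorm.symm
    have hk : k = 1 := by
      have h5 : k ^ 2 ∣ 3 := ⟨t, hkt.symm⟩
      have h6 : k ≤ 1 := by
        by_contra hk
        have h7 : 2 ^ 2 ≤ k ^ 2 := Nat.pow_le_pow_left (by omega) 2
        have h8 := Nat.le_of_dvd (by norm_num) h5
        omega
      rcases Nat.eq_zero_or_pos k with h7 | h7
      · rw [h7] at hkt
        norm_num at hkt
      · omega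
    subst hk
    have ht : t = 3 := by omega
    subst ht
    have hX1 : X 1 = ((Fintype.card F : ℂ) + 1) * ((Fintype.card F : ℂ) ^ 2 + Fintype.card F + 1) := by
      have h5 := para_restrict (F := F) hcf 1
      rw [map_one, I_one, (GL2.data F).ind_one, mul_comm] at h5
      exact h5
    have e1 : (charDegree X : ℂ) = X 1 := cd_cast hirr
    have e2 : (charDegree (χ ∘ e.symm) : ℂ) = χ 1 := by
      rw [cd_cast hν, Function.comp_apply, map_one]
    rw [← hX1, ← e1, ← e2, hdeg]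
    push_cast
    ring
  · have h5 : ∀ a b, fl lam (a, b) = fl lam ((a * b)⁻¹, a) := fun a b => DFunLike.congr_fun h3 (a, b)
    obtain ⟨a, ha⟩ : ∃ a, fl lam (a, 1) ≠ 1 := by
      by_contra hcon
      push Not at hcon
      exact h2 ((fix_sg_iff _).2 hcon)
    have h6 : ∀ b, fl lam (1, b) = (fl lam (b, 1))⁻¹ := by
      intro b
      rw [h5 1 b, one_mul, ← map_inv]
      congr 1
    have h7 : fl lam (a, 1) ^ 3 = 1 := by
      have h8 := h5 a 1
      rw [mul_one] at h8
      have h9 : fl lam (a⁻¹, a) = (fl lam (a, 1))⁻¹ * fl lam (1, a) := by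
        rw [← map_inv, ← map_mul]
        congr 1
        simp
      rw [h9, h6] at h8
      have h10 : fl lam (a, 1) * (fl lam (a, 1) * fl lam (a, 1)) = 1 := by
        nth_rewrite 1 [h8]
        group
      rw [pow_succ, pow_two, mul_assoc]
      exact h10
    have h8 : orderOf (fl lam (a, 1)) = 3 := orderOf_eq_prime h7 ha
    have h9 : orderOf (fl lam (a, 1)) ∣ orderOf a := by
      have := orderOf_map_dvd ((fl lam).comp (MonoidHom.inl Fˣ Fˣ)) a
      exact this
    rw [h8] at h9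
    have h10 := h9.trans (orderOf_dvd_natCard a)
    rwa [natCard_units] at h10

end Cfsg.Agent.H612.Deg3
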