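import Cfsg.Agent.H612.Deg3.Cubic

/-!
# The degrees of `SL_3(q)` (helper612)

`degrees_list` : the degrees, with the characters having the centre in the kernel;
`degrees_subset` : `charDegrees SL_3(F) ⊆ DT |F|`.
-/

set_option autoImplicit false
set_option linter.unusedSectionVars false

open scoped ComplexConjugate
open Cfsg Matrix

namespace Cfsg.Agent.H612.Deg3

open Cfsg.Agent.Characters.Core

universe v

/-- **The degrees of `SL_3(q)`.** -/
theorem degrees_list {F : Type v} [Field F] [Fintype F] {χ : SpecialLinearGroup (Fin 3) F → ℂ}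
    (hχ : IsIrrCharacter _ χ) :
    χ = 1 ∨
    (χ 1 = (Fintype.card F : ℂ) ^ 2 + Fintype.card F ∧ ZT χ) ∨
    (χ 1 = (Fintype.card F : ℂ) ^ 3 ∧ ZT χ) ∨
    (3 ≤ Fintype.card F ∧ χ 1 = (Fintype.card F : ℂ) ^ 2 + Fintype.card F + 1) ∨
    (3 ≤ Fintype.card F ∧ χ 1 = (Fintype.card F : ℂ) * ((Fintype.card F : ℂ) ^ 2 + Fintype.card F + 1)) ∨
    (5 ≤ Fintype.card F ∧
      χ 1 = ((Fintype.card F : ℂ) + 1) * ((Fintype.card F : ℂ) ^ 2 + Fintype.card F + 1)) ∨
    χ 1 = ((Fintype.card F : ℂ) - 1) * ((Fintype.card F : ℂ) ^ 2 + Fintype.card F + 1) ∨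
    (3 ∣ Fintype.card F - 1 ∧ 3 * χ 1 = ((Fintype.card F : ℂ) + 1) * ((Fintype.card F : ℂ) ^ 2 + Fintype.card F + 1) ∧
      ZT χ) ∨
    χ 1 = ((Fintype.card F : ℂ) - 1) * ((Fintype.card F : ℂ) ^ 2 - 1) ∨
    (3 ∣ Fintype.card F - 1 ∧ 3 * χ 1 = ((Fintype.card F : ℂ) - 1) * ((Fintype.card F : ℂ) ^ 2 - 1)) := by
  classical
  have : Fintype Fˣ := Fintype.ofFinite _
  have : Fintype (SpecialLinearGroup (Fin 3) F) := Fintype.ofFinite _
  have : Fintype (GL (Fin 2) F) := Fintype.ofFinite _
  by_cases h0 : ∑ z : F × F, χ (ur z) = 0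
  · rcases cusp_sl hχ h0 with h | h
    · right; right; right; right; right; right; right; right; left; exact h
    · right; right; right; right; right; right; right; right; right; exact h
  · obtain ⟨Ψ, hΨ, h⟩ := exists_of_sum_ne (isIrr_isCharacter hχ) h0
    rcases noncusp_cases hχ hΨ h with h | h | h | h | h | h | h | ⟨h, hz⟩
    · exact Or.inl h
    · right; left; exact h
    · right; right; left; exact h
    · right; right; right; left; exact h
    · right; right; right; right; left; exact h
    · right; right; right; right; right; left; exact h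
    · right; right; right; right; right; right; left; exact h
    · right; right; right; right; right; right; right; left
      obtain ⟨h1, h2⟩ := cubic_degree hχ h
      exact ⟨h2, h1, hz⟩

/-- **The set of degrees.** -/
theorem degrees_subset {F : Type v} [Field F] [Fintype F] :
    charDegrees (SpecialLinearGroup (Fin 3) F) ⊆ Cfsg.Agent.H691.T3.DT (Fintype.card F) := by
  intro d hd
  rw [Cfsg.Agent.H424.DegTools.mem_charDegrees] at hd
  obtain ⟨χ, hχ, hχ1⟩ := hd
  have hq : 1 < Fintype.card F := Fintype.one_lt_card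
  have hq1 : ((Fintype.card F - 1 : ℕ) : ℂ) = (Fintype.card F : ℂ) - 1 := by
    rw [Nat.cast_sub hq.le, Nat.cast_one]
  rcases degrees_list hχ with h | ⟨h, -⟩ | ⟨h, -⟩ | ⟨h3, h⟩ | ⟨h3, h⟩ | ⟨h5, h⟩ | h | ⟨h3, h, -⟩ | h | ⟨h3, h⟩
  · left
    rw [h, Pi.one_apply] at hχ1
    exact_mod_cast hχ1.symm
  · right; left
    rw [hχ1] at h
    exact_mod_cast h
  · right; right; left
    rw [hχ1] at h
    exact_mod_cast h
  · right; right; right; right; right; left
    rw [hχ1] at h
    exact ⟨h3, Or.inl (by exact_mod_cast h)⟩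
  · right; right; right; right; right; left
    rw [hχ1] at h
    exact ⟨h3, Or.inr (by exact_mod_cast h)⟩
  · right; right; right; right; right; right; left
    rw [hχ1] at h
    exact ⟨h5, by exact_mod_cast h⟩
  · right; right; right; left
    rw [hχ1] at h
    have h1 : (d : ℂ) + 1 = (Fintype.card F : ℂ) ^ 3 := by
      rw [h]
      ring
    exact_mod_cast h1
  · right; right; right; right; right; right; right
    rw [hχ1] at h
    exact ⟨h3, Or.inl (by exact_mod_cast h)⟩
  · right; right; right; right; left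
    rw [hχ1] at h
    have h1 : (d : ℂ) = (((Fintype.card F - 1) ^ 2 * (Fintype.card F + 1) : ℕ) : ℂ) := by
      push_cast
      rw [hq1, h]
      ring
    exact_mod_cast h1
  · right; right; right; right; right; right; right
    rw [hχ1] at h
    refine ⟨h3, Or.inr ?_⟩
    have h1 : ((3 * d : ℕ) : ℂ) = (((Fintype.card F - 1) ^ 2 * (Fintype.card F + 1) : ℕ) : ℂ) := by
      push_cast
      rw [hq1, h]
      ring
    exact_mod_cast h1

end Cfsg.Agent.H612.Deg3
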