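import Cfsg.Agent.H612.Deg3.Degrees

/-!
# `(q - 1)² (q + 1) / 3` is not a degree of `GL_3(q)` (helper612, for S4855)
-/

set_option autoImplicit false
set_option linter.unusedSectionVars false

open scoped ComplexConjugate
open Cfsg Matrix

namespace Cfsg.Agent.H612.Deg3

open Cfsg.Agent.Characters Cfsg.Agent.Characters.Core Cfsg.Agent.H612.Deg3.Gel

universe v

theorem not_phi_dvd {q : ℕ} (hq : 4 ≤ q) (h : q ^ 2 + q + 1 ∣ 3 * ((q - 1) ^ 2 * (q + 1))) : False := by
  obtain ⟨r, rfl⟩ : ∃ r, q = r + 2 := ⟨q - 2, by omega⟩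
  have h1 : 3 * ((r + 2 - 1) ^ 2 * (r + 2 + 1)) = ((r + 2) ^ 2 + (r + 2) + 1) * (3 * r) + 9 := by
    rw [show r + 2 - 1 = r + 1 by omega]
    ring
  rw [h1] at h
  have h2 : (r + 2) ^ 2 + (r + 2) + 1 ∣ 9 := (Nat.dvd_add_right (Dvd.intro _ rfl)).1 h
  have h3 := Nat.le_of_dvd (by norm_num) h2
  nlinarith

theorem not_q_dvd {q : ℕ} (hq : 4 ≤ q) (h : q ∣ (q - 1) ^ 2 * (q + 1)) : False := by
  obtain ⟨r, rfl⟩ : ∃ r, q = r + 2 := ⟨q - 2, by omega⟩
  have h1 : (r + 2 - 1) ^ 2 * (r + 2 + 1) = (r + 2) * (r ^ 2 + 3 * r + 1) + 1 := by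
    rw [show r + 2 - 1 = r + 1 by omega]
    ring
  rw [h1] at h
  have h2 : r + 2 ∣ 1 := (Nat.dvd_add_right (Dvd.intro _ rfl)).1 h
  have h3 := Nat.le_of_dvd (by norm_num) h2
  omega

/-- a character over the trivial character of the kernel of `det` -/
theorem one_of_over_one {G : Type*} [Group G] [Fintype G] (N : Subgroup G) [N.Normal] [Fintype N]
    (hN : commutator G ≤ N) {χ : G → ℂ} (hχ : IsIrrCharacter G χ)
    (h : classInner (fun n : N => χ n) (1 : N → ℂ) ≠ 0) : χ 1 = 1 := by
  classical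
  have : Fintype (IrrCharacter N) := @Fintype.ofFinite _ finite_irr
  have hres : IsCharacter N (fun n : N => χ n) := isCharacter_comp N.subtype (isIrr_isCharacter hχ)
  obtain ⟨c, hc, hc'⟩ := Cfsg.Agent.CharDeep.CliffordCorr.exists_nat_coeffs hres
  have key : ∀ ψ : IrrCharacter N, c ψ ≠ 0 → (ψ : N → ℂ) = 1 := by
    intro ψ h0
    have h1 : classInner (fun n : N => χ n) (ψ : N → ℂ) ≠ 0 := by
      rw [hc' ψ]
      exact_mod_cast h0
    obtain ⟨g, hg⟩ := Clifford.exists_conj_of_constituents N hχ isIrr_one ψ.2 h h1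
    rw [hg]
    rfl
  have h1 : ∀ y ∈ commutator G, χ y = χ 1 := by
    intro y hy
    have h2 := congrFun hc ⟨y, hN hy⟩
    have h3 := congrFun hc 1
    simp only [Finset.sum_apply, Pi.smul_apply] at h2 h3
    change χ y = _ at h2
    change χ 1 = _ at h3
    rw [h2, h3]
    refine Finset.sum_congr rfl fun ψ _ => ?_
    by_cases h0 : c ψ = 0
    · rw [h0]
      simp
    · rw [key ψ h0]
      rfl
  obtain ⟨f, rfl⟩ := OddOrderCharacters.PF9.CliffGen.exists_hom_of_ker hχ h1
  simp

/-- **`(q - 1)² (q + 1) / 3` is not a degree of `GL_3(q)`.** -/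
theorem third_not_gl {F : Type v} [Field F] [Fintype F] (h3 : 3 ∣ Fintype.card F - 1) (d : ℕ)
    (hd : d ∈ charDegrees (GL (Fin 3) F)) :
    3 * d ≠ (Fintype.card F - 1) ^ 2 * (Fintype.card F + 1) := by
  classical
  intro h3d
  rw [Cfsg.Agent.H424.DegTools.mem_charDegrees] at hd
  obtain ⟨χ, hχ, hχ1⟩ := hd
  have hq : 1 < Fintype.card F := Fintype.one_lt_card
  have hq4 : 4 ≤ Fintype.card F := by
    obtain ⟨k, hk⟩ := h3
    omega
  have hq1 : ((Fintype.card F - 1 : ℕ) : ℂ) = (Fintype.card F : ℂ) - 1 := by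
    rw [Nat.cast_sub hq.le, Nat.cast_one]
  have : Fintype Fˣ := Fintype.ofFinite _
  have : Fintype (SpecialLinearGroup (Fin 3) F) := Fintype.ofFinite _
  have : Fintype (GL (Fin 2) F) := Fintype.ofFinite _
  have : Fintype (GL (Fin 3) F) := Fintype.ofFinite _
  by_cases h0 : ∑ z : F × F, χ (u3 0 z.1 z.2) = 0
  · have h1 := cusp_degree hχ h0
    have h2 : (d : ℂ) = (((Fintype.card F - 1) ^ 2 * (Fintype.card F + 1) : ℕ) : ℂ) := by
      push_cast
      rw [hq1, ← hχ1, h1]
      ring
    have h4 : d = (Fintype.card F - 1) ^ 2 * (Fintype.card F + 1) := by exact_mod_cast h2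
    rw [← h4] at h3d
    have h5 : 0 < (Fintype.card F - 1) ^ 2 * (Fintype.card F + 1) := by
      apply Nat.mul_pos
      · apply pow_pos
        omega
      · omega
    omega
  · -- a constituent for `SL_3`
    let f : GL (Fin 3) F →* Fˣ := GeneralLinearGroup.det
    let e : SpecialLinearGroup (Fin 3) F ≃* f.ker :=
      (MonoidHom.ofInjective Matrix.SpecialLinearGroup.toGL_injective).trans
        (MulEquiv.subgroupCongr (Cfsg.Agent.ClassicalGeometry.PSL2Basic.range_toGL (Fin 3) F))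
    have he : ∀ x, ((e x : f.ker) : GL (Fin 3) F) = Matrix.SpecialLinearGroup.toGL x := fun x => rfl
    have : Fintype f.ker := Fintype.ofFinite _
    have hres : IsCharacter f.ker (fun n : f.ker => χ n) := isCharacter_comp f.ker.subtype (isIrr_isCharacter hχ)
    have h1 : ∑ z : F × F, χ (u3 0 z.1 z.2) = ∑ z : F × F, (fun n : f.ker => χ n) (e (ur z)) := by
      refine Fintype.sum_equiv (Equiv.prodComm F F) _ _ fun z => ?_
      show χ (u3 0 z.1 z.2) = χ (Matrix.SpecialLinearGroup.toGL (ur (z.2, z.1)))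
      congr 1
      apply Units.ext
      rfl
    have : Fintype (IrrCharacter f.ker) := @Fintype.ofFinite _ finite_irr
    obtain ⟨c, hc, hc'⟩ := Cfsg.Agent.CharDeep.CliffordCorr.exists_nat_coeffs hres
    rw [h1, hc] at h0
    simp only [Finset.sum_apply, Pi.smul_apply] at h0
    rw [Finset.sum_comm] at h0
    obtain ⟨ψ, -, hψ⟩ := Finset.exists_ne_zero_of_sum_ne_zero h0
    rw [← Finset.smul_sum] at hψ
    have hcψ : c ψ ≠ 0 := by
      intro h2
      apply hψ
      rw [h2]
      simp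
    have hψs : ∑ z : F × F, (ψ : f.ker → ℂ) (e (ur z)) ≠ 0 := by
      intro h2
      apply hψ
      rw [h2, smul_zero]
    set φ : SpecialLinearGroup (Fin 3) F → ℂ := (ψ : f.ker → ℂ) ∘ e with hφ
    have hφi : IsIrrCharacter _ φ := isIrr_comp e.toMonoidHom e.surjective ψ.2
    have hin : classInner (fun n : f.ker => χ n) (ψ : f.ker → ℂ) ≠ 0 := by
      rw [hc' ψ]
      exact_mod_cast hcψ
    obtain ⟨k, t, -, hdeg, -, -⟩ := Cfsg.Agent.H597.IndexP.exists_clifford_numbers f.ker hχ ψ.2 hin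
    -- the degree of `φ` divides `d`
    have hφd : charDegree φ ∣ d := by
      have h2 : charDegree χ = d := Cfsg.Agent.H973.SLThree.charDegree_eq hχ1
      have h4 : charDegree φ = charDegree (ψ : f.ker → ℂ) := by
        unfold charDegree
        rw [hφ, Function.comp_apply, map_one]
      rw [h4, ← h2, hdeg]
      exact Dvd.intro_left _ rfl
    obtain ⟨Ψ, hΨ, hne⟩ := exists_of_sum_ne (isIrr_isCharacter hφi) hψs
    have hcast := cd_cast hφi
    set D := charDegree φ with hD
    have hdvd : D ∣ (Fintype.card F - 1) ^ 2 * (Fintype.card F + 1) := by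
      rw [← h3d]
      exact hφd.mul_left 3
    have hΦ : ¬ Fintype.card F ^ 2 + Fintype.card F + 1 ∣ (Fintype.card F - 1) ^ 2 * (Fintype.card F + 1) :=
      fun h => not_phi_dvd hq4 (h.mul_left 3)
    rcases noncusp_cases hφi hΨ hne with h | ⟨h, -⟩ | ⟨h, -⟩ | ⟨-, h⟩ | ⟨-, h⟩ | ⟨-, h⟩ | h | ⟨h, -⟩
    · have h2 : (ψ : f.ker → ℂ) = 1 := by
        have h4 : (ψ : f.ker → ℂ) = φ ∘ e.symm := by
          rw [hφ]
          funext x
          simp
        rw [h4, h]
        rfl
      rw [h2] at hin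
      have h4 : commutator (GL (Fin 3) F) ≤ f.ker := Abelianization.commutator_subset_ker f
      have h5 := one_of_over_one f.ker h4 hχ hin
      rw [hχ1] at h5
      have h6 : d = 1 := by exact_mod_cast h5
      rw [h6] at h3d
      have h7 : 3 ^ 2 * 5 ≤ (Fintype.card F - 1) ^ 2 * (Fintype.card F + 1) :=
        Nat.mul_le_mul (Nat.pow_le_pow_left (by omega) 2) (by omega)
      omega
    · rw [← hcast] at h
      have h2 : D = Fintype.card F * (Fintype.card F + 1) := by
        have : (D : ℂ) = ((Fintype.card F * (Fintype.card F + 1) : ℕ) : ℂ) := by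
          push_cast
          rw [h]
          ring
        exact_mod_cast this
      exact not_q_dvd hq4 ((Dvd.intro _ h2.symm).trans hdvd)
    · rw [← hcast] at h
      have h2 : D = Fintype.card F ^ 3 := by exact_mod_cast h
      exact not_q_dvd hq4 (((dvd_pow_self _ (by norm_num)).trans (dvd_of_eq h2.symm)).trans hdvd)
    · rw [← hcast] at h
      have h2 : D = Fintype.card F ^ 2 + Fintype.card F + 1 := by exact_mod_cast h
      exact hΦ ((dvd_of_eq h2.symm).trans hdvd)
    · rw [← hcast] at h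
      have h2 : D = Fintype.card F * (Fintype.card F ^ 2 + Fintype.card F + 1) := by exact_mod_cast h
      exact hΦ ((Dvd.intro_left _ h2.symm).trans hdvd)
    · rw [← hcast] at h
      have h2 : D = (Fintype.card F + 1) * (Fintype.card F ^ 2 + Fintype.card F + 1) := by exact_mod_cast h
      exact hΦ ((Dvd.intro_left _ h2.symm).trans hdvd)
    · rw [← hcast] at h
      have h2 : D = (Fintype.card F - 1) * (Fintype.card F ^ 2 + Fintype.card F + 1) := by
        have : (D : ℂ) = (((Fintype.card F - 1) * (Fintype.card F ^ 2 + Fintype.card F + 1) : ℕ) : ℂ) := by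
          push_cast
          rw [hq1, h]
        exact_mod_cast this
      exact hΦ ((Dvd.intro_left _ h2.symm).trans hdvd)
    · obtain ⟨h4, -⟩ := cubic_degree hφi h
      rw [← hcast] at h4
      have h2 : 3 * D = (Fintype.card F + 1) * (Fintype.card F ^ 2 + Fintype.card F + 1) := by exact_mod_cast h4
      exact not_phi_dvd hq4 ((Dvd.intro_left _ h2.symm).trans (Nat.mul_dvd_mul_left 3 hdvd))

end Cfsg.Agent.H612.Deg3
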