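import Cfsg.Agent.H612.Deg3.Cusp
import Cfsg.Agent.H612.Deg3.Series
import Cfsg.Agent.H973.SLThree
import Cfsg.Agent.H706.Uniq

/-!
# The restriction of the characters of `GL_3(q)` to `SL_3(q)` (helper612)

`clifford_over` : (after helper973) Clifford theory for a cyclic quotient, with the character lying over;
`cusp_sl` : the degree of a character of `SL_3(q)` without fixed vectors of the unipotent radical.
-/

set_option autoImplicit false
set_option linter.unusedSectionVars false
set_option linter.unusedSimpArgs false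

open scoped ComplexConjugate
open Cfsg Matrix

namespace Cfsg.Agent.H612.Deg3

open Cfsg.Agent.Characters.Core Cfsg.Agent.CharactersDeep Cfsg.Agent.H973.SLThree

universe u v

section Abs

variable {G C : Type*} [Group G] [Fintype G] [CommGroup C] (f : G →* C)

/-- **Clifford theory** for a cyclic quotient and a character fixed by the elements which are cubes in the quotient. -/
theorem clifford_over [Finite C] [IsCyclic C] (hf : Function.Surjective f) (N : Subgroup G) [hNn : N.Normal]
    [Fintype N] (hN : N = f.ker) {θ : N → ℂ} (hθ : IsIrrCharacter N θ)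
    (hcube : ∀ g : G, (∃ c, f g = c ^ 3) → ∀ n : N, θ ⟨g * n * g⁻¹, hNn.conj_mem (n : G) n.2 g⟩ = θ n) :
    ∃ χ : G → ℂ, IsIrrCharacter G χ ∧ classInner (fun n : N => χ n) θ ≠ 0 ∧
      (χ 1 = θ 1 ∨ (3 ∣ Nat.card C ∧ χ 1 = 3 * θ 1)) := by
  classical
  set T := inertia N θ with hT
  by_cases hTt : T = ⊤
  · have hinv : ∀ (g : G) (n : N), θ ⟨g * n * g⁻¹, hNn.conj_mem (n : G) n.2 g⟩ = θ n := by
      intro g
      have : g ∈ T := by rw [hTt]; trivial
      exact this
    have hcyc : IsCyclic (G ⧸ N) := by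
      subst hN
      exact isCyclic_of_surjective (QuotientGroup.quotientKerEquivOfSurjective f hf).symm
        (QuotientGroup.quotientKerEquivOfSurjective f hf).symm.surjective
    obtain ⟨χ, hχ, hχθ⟩ := Cfsg.Agent.S0886.result N hcyc θ hθ hinv
    refine ⟨χ, hχ, ?_, Or.inl (hχθ 1)⟩
    have : (fun n : N => χ n) = θ := funext hχθ
    rw [this, classInner_irr_self hθ]
    exact one_ne_zero
  · -- the index of `T`
    have hNT : N ≤ T := by
      intro g hg
      rw [hN] at hg
      have h1 : f g = (1 : C) ^ 3 := by rw [MonoidHom.mem_ker.1 hg, one_pow]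
      exact hcube g ⟨1, h1⟩
    have hMT : ((powMonoidHom 3 : C →* C).range).comap f ≤ T := by
      rintro g ⟨c, hc⟩
      exact hcube g ⟨c, hc.symm⟩
    have hidx : T.index = 3 ∧ 3 ∣ Nat.card C := by
      have h1 : T.index ∣ (Nat.card C).gcd 3 := by
        rw [← IsCyclic.index_powMonoidHom_range, ← Subgroup.index_comap_of_surjective _ hf]
        exact Subgroup.index_dvd_of_le hMT
      have h2 : T.index ≠ 1 := fun h => hTt (Subgroup.index_eq_one.1 h)
      have h3 : T.index ∣ 3 := h1.trans (Nat.gcd_dvd_right _ _)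
      have h4 : T.index = 3 := by
        rcases (Nat.dvd_prime Nat.prime_three).1 h3 with h5 | h5
        · exact absurd h5 h2
        · exact h5
      rw [h4] at h1
      exact ⟨h4, h1.trans (Nat.gcd_dvd_left _ _)⟩
    have hTn : T.Normal := by
      refine ⟨fun t ht g => ?_⟩
      have h1 : g * t * g⁻¹ * t⁻¹ ∈ N := by
        rw [hN, MonoidHom.mem_ker, map_mul, map_mul, map_mul, map_inv, map_inv, mul_comm (f g) (f t),
          mul_inv_cancel_right, mul_inv_cancel]
      have h2 := T.mul_mem (hNT h1) ht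
      rwa [inv_mul_cancel_right] at h2
    -- the extension to `T`
    have hcycT : IsCyclic (T ⧸ (N.subgroupOf T)) := by
      have h1 : IsCyclic (T ⧸ (f.comp T.subtype).ker) := by
        have h2 : IsCyclic (f.comp T.subtype).range := inferInstance
        exact isCyclic_of_surjective (QuotientGroup.quotientKerEquivRange (f.comp T.subtype)).symm
          (QuotientGroup.quotientKerEquivRange (f.comp T.subtype)).symm.surjective
      subst hN
      exact h1
    set θ' : N.subgroupOf T → ℂ := fun x => θ ⟨((x : T) : G), Subgroup.mem_subgroupOf.mp x.2⟩ with hθ'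
    have hθ'irr : IsIrrCharacter (N.subgroupOf T) θ' := by
      have h1 := isIrr_comp (Subgroup.subgroupOfEquivOfLe hNT).toMonoidHom
        (Subgroup.subgroupOfEquivOfLe hNT).surjective hθ
      exact h1
    have hinvT : ∀ (t : T) (n : N.subgroupOf T), θ' ⟨t * n * t⁻¹, (inferInstance : (N.subgroupOf T).Normal).conj_mem (n : T) n.2 t⟩ = θ' n := by
      intro t n
      exact t.2 ⟨((n : T) : G), Subgroup.mem_subgroupOf.mp n.2⟩
    obtain ⟨ψ, hψ, hψθ⟩ := Cfsg.Agent.S0886.result (N.subgroupOf T) hcycT θ' hθ'irr hinvT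
    have hne : classInner (indFun (N.subgroupOf T) θ') ψ ≠ 0 := by
      rw [NormalInd.classInner_indFun _ _ _ (isIrr_isClassFunction hψ)]
      have h1 : (fun h : N.subgroupOf T => ψ h) = θ' := funext hψθ
      rw [h1, classInner_irr_self hθ'irr]
      exact one_ne_zero
    have hirr := (Cfsg.Agent.S1489.result N T θ hθ (fun g => Iff.rfl) hNT ψ ψ hψ hψ hne hne).1
    refine ⟨indFun T ψ, hirr, ?_, Or.inr ⟨hidx.2, ?_⟩⟩
    · -- the character lies over `θ`
      have h1 : classInner ((indFun T ψ) ∘ T.subtype) ψ ≠ 0 := by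
        have h2 := NormalInd.classInner_indFun T ψ (indFun T ψ) (isIrr_isClassFunction hirr)
        rw [classInner_irr_self hirr] at h2
        intro h3
        rw [← classInner_conj_symm] at h2
        change 1 = conj (classInner ((indFun T ψ) ∘ T.subtype) ψ) at h2
        rw [h3, map_zero] at h2
        exact one_ne_zero h2
      let j : N →* T := Subgroup.inclusion hNT
      have h2 : classInner (ψ ∘ j) θ ≠ 0 := by
        have h3 : ψ ∘ j = θ := by
          funext n
          exact hψθ ⟨j n, Subgroup.mem_subgroupOf.2 n.2⟩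
        rw [h3, classInner_irr_self hθ]
        exact one_ne_zero
      exact Cfsg.Agent.H706.Uniq.over_trans j (isCharacter_comp T.subtype (isIrr_isCharacter hirr)) hψ
        (isIrr_isCharacter hθ) h1 h2
    · rw [NormalInd.indFun_one, hidx.1]
      have h1 : ψ 1 = θ 1 := hψθ 1
      rw [h1]
      norm_num

end Abs

open Cfsg.Agent.H612.Deg3.Gel in
/-- **The degrees of the cuspidal characters of `SL_3(q)`.** -/
theorem cusp_sl {F : Type v} [Field F] [Fintype F] {θ : SpecialLinearGroup (Fin 3) F → ℂ} (hθ : IsIrrCharacter _ θ)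
    (h : ∑ z : F × F, θ (ur z) = 0) :
    θ 1 = ((Fintype.card F : ℂ) - 1) * ((Fintype.card F : ℂ) ^ 2 - 1) ∨
    (3 ∣ Fintype.card F - 1 ∧ 3 * θ 1 = ((Fintype.card F : ℂ) - 1) * ((Fintype.card F : ℂ) ^ 2 - 1)) := by
  classical
  let f : GL (Fin 3) F →* Fˣ := GeneralLinearGroup.det
  have hf : Function.Surjective f := GeneralLinearGroup.det_surjective
  let e : SpecialLinearGroup (Fin 3) F ≃* f.ker :=
    (MonoidHom.ofInjective Matrix.SpecialLinearGroup.toGL_injective).trans
      (MulEquiv.subgroupCongr (Cfsg.Agent.ClassicalGeometry.PSL2Basic.range_toGL (Fin 3) F))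
  have he : ∀ x, ((e x : f.ker) : GL (Fin 3) F) = Matrix.SpecialLinearGroup.toGL x := fun x => rfl
  set θ' : f.ker → ℂ := θ ∘ e.symm with hθ'
  have hθ'i : IsIrrCharacter f.ker θ' := isIrr_comp e.symm.toMonoidHom e.symm.surjective hθ
  have hcl := isIrr_isClassFunction hθ'i
  have hcube : ∀ g : GL (Fin 3) F, (∃ c, f g = c ^ 3) → ∀ n : f.ker,
      θ' ⟨g * n * g⁻¹, (inferInstance : f.ker.Normal).conj_mem (n : GL (Fin 3) F) n.2 g⟩ = θ' n := by
    rintro g ⟨c, hc⟩ n
    -- the scalar matrix
    let z : GL (Fin 3) F := Units.map (Matrix.scalar (Fin 3)).toMonoidHom c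
    have hz : ∀ x : GL (Fin 3) F, z * x = x * z := by
      intro x
      apply Units.ext
      show (Matrix.scalar (Fin 3)) (c : F) * (x : Matrix (Fin 3) (Fin 3) F) = x * (Matrix.scalar (Fin 3)) (c : F)
      exact (Matrix.scalar_commute (c : F) (fun _ => mul_comm _ _) _).eq
    have hzd : f z = c ^ 3 := by
      apply Units.ext
      show ((Matrix.scalar (Fin 3)) (c : F)).det = ((c ^ 3 : Fˣ) : F)
      rw [Matrix.scalar_apply, Matrix.det_diagonal]
      simp
    have hm : g * z⁻¹ ∈ f.ker := by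
      rw [MonoidHom.mem_ker, map_mul, map_inv, hzd, hc, mul_inv_cancel]
    have h1 := hcl n ⟨g * z⁻¹, hm⟩
    rw [← h1]
    congr 1
    apply Subtype.ext
    show g * n * g⁻¹ = g * z⁻¹ * n * (g * z⁻¹)⁻¹
    have h2 := hz (n : GL (Fin 3) F)
    calc g * n * g⁻¹ = g * z⁻¹ * (z * n) * g⁻¹ := by group
      _ = g * z⁻¹ * (n * z) * g⁻¹ := by rw [h2]
      _ = g * z⁻¹ * n * (g * z⁻¹)⁻¹ := by group
  have hcardU : Nat.card Fˣ = Fintype.card F - 1 := by
    rw [Nat.card_eq_fintype_card, Fintype.card_units]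
  obtain ⟨χ, hχ, hov, hdeg⟩ := clifford_over f hf f.ker rfl hθ'i hcube
  -- the sum over the radical
  have key : ∀ g : GL (Fin 3) F, ∑ z : F × F, (θ' ∘ (MulAut.conjNormal g : MulAut f.ker)) (e (ur z)) = 0 := by
    intro g
    set d : Fˣ := f g with hd
    let t : GL (Fin 3) F := mk3 !![(d : F), 0, 0; 0, 1, 0; 0, 0, 1] (by rw [det_fin_three]; simp)
    have ht : f t = d := by
      apply Units.ext
      show (!![(d : F), 0, 0; 0, 1, 0; 0, 0, 1] : Matrix (Fin 3) (Fin 3) F).det = d
      rw [det_fin_three]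
      simp
    have hm : g * t⁻¹ ∈ f.ker := by
      rw [MonoidHom.mem_ker, map_mul, map_inv, ht, ← hd, mul_inv_cancel]
    have hconj : ∀ z : F × F, (θ' ∘ (MulAut.conjNormal g : MulAut f.ker)) (e (ur z)) = θ (ur ((d : F) * z.1, z.2)) := by
      intro z
      have h1 := hcl (e (ur ((d : F) * z.1, z.2))) ⟨g * t⁻¹, hm⟩
      have h2 : θ' (e (ur ((d : F) * z.1, z.2))) = θ (ur ((d : F) * z.1, z.2)) := by
        rw [hθ', Function.comp_apply, e.symm_apply_apply]
      rw [← h2, ← h1, Function.comp_apply]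
      congr 1
      apply Subtype.ext
      show g * Matrix.SpecialLinearGroup.toGL (ur z) * g⁻¹ =
        g * t⁻¹ * Matrix.SpecialLinearGroup.toGL (ur ((d : F) * z.1, z.2)) * (g * t⁻¹)⁻¹
      have h3 : t * Matrix.SpecialLinearGroup.toGL (ur z) =
          Matrix.SpecialLinearGroup.toGL (ur ((d : F) * z.1, z.2)) * t := by
        apply Units.ext
        show !![(d : F), 0, 0; 0, 1, 0; 0, 0, 1] * !![1, 0, z.1; 0, 1, z.2; 0, 0, 1] =
          !![1, 0, (d : F) * z.1; 0, 1, z.2; 0, 0, 1] * !![(d : F), 0, 0; 0, 1, 0; 0, 0, 1]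
        ext i j
        fin_cases i <;> fin_cases j <;> simp [Matrix.mul_apply, Fin.sum_univ_three]
      calc g * Matrix.SpecialLinearGroup.toGL (ur z) * g⁻¹
          = g * t⁻¹ * (t * Matrix.SpecialLinearGroup.toGL (ur z)) * g⁻¹ := by group
        _ = g * t⁻¹ * (Matrix.SpecialLinearGroup.toGL (ur ((d : F) * z.1, z.2)) * t) * g⁻¹ := by rw [h3]
        _ = _ := by group
    rw [Finset.sum_congr rfl fun z _ => hconj z, ← h]
    exact Fintype.sum_equiv ((Equiv.mulLeft₀ (d : F) d.ne_zero).prodCongr (Equiv.refl F)) _ _ fun z => rfl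
  have hsum : ∑ z : F × F, χ (u3 0 z.1 z.2) = 0 := by
    have h1 : ∑ z : F × F, χ (u3 0 z.1 z.2) = ∑ z : F × F, (fun n : f.ker => χ n) (e (ur z)) := by
      refine Fintype.sum_equiv (Equiv.prodComm F F) _ _ fun z => ?_
      show χ (u3 0 z.1 z.2) = χ (Matrix.SpecialLinearGroup.toGL (ur (z.2, z.1)))
      congr 1
      apply Units.ext
      rfl
    rw [h1]
    have : Fintype (IrrCharacter f.ker) := @Fintype.ofFinite _ finite_irr
    have hres : IsCharacter f.ker (fun n : f.ker => χ n) := isCharacter_comp f.ker.subtype (isIrr_isCharacter hχ)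
    obtain ⟨c, hc, hc'⟩ := Cfsg.Agent.CharDeep.CliffordCorr.exists_nat_coeffs hres
    rw [hc]
    simp only [Finset.sum_apply, Pi.smul_apply]
    rw [Finset.sum_comm]
    refine Finset.sum_eq_zero fun ψ _ => ?_
    rw [← Finset.smul_sum]
    by_cases h0 : c ψ = 0
    · rw [h0]
      simp
    · have h2 : classInner (fun n : f.ker => χ n) (ψ : f.ker → ℂ) ≠ 0 := by
        rw [hc' ψ]
        exact_mod_cast h0
      obtain ⟨g, hg⟩ := Cfsg.Agent.Characters.Clifford.exists_conj_of_constituents f.ker hχ hθ'i ψ.2 hov h2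
      rw [hg, key g, smul_zero]
  have h1 := cusp_degree hχ hsum
  rcases hdeg with h2 | ⟨h3, h2⟩
  · left
    rw [← h1, h2, hθ', Function.comp_apply, map_one]
  · right
    rw [hcardU] at h3
    refine ⟨h3, ?_⟩
    rw [← h1, h2, hθ', Function.comp_apply, map_one]

end Cfsg.Agent.H612.Deg3
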